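import Cfsg.Agent.SylowDegreeDivisor.Counting
import Cfsg.Agent.Chars.Induced.Ito
import Cfsg.Agent.Chars.RealOddSolvable.Basic
import Mathlib.GroupTheory.Nilpotent

/-!
# Invariant characters of `q`-groups under automorphisms of order a power of another prime

If such an automorphism is non-trivial modulo the kernel of an invariant character, then the degree
is divisible by a power of `q` which is congruent to `1` or `-1`.
-/

set_option autoImplicit false
open Cfsg CfsgLib CfsgLib.Chars CfsgLib.Chars.Induced CfsgLib.Chars.RealOddSolvable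

noncomputable section

namespace CfsgLib.SylowDegreeDivisor

universe u

theorem mem_charKer_constituent {Q : Type u} [Group Q] [Finite Q] {M : Subgroup Q} [M.Normal]
    [Fintype M] (θ : IrrCharacter Q) (φ : IrrCharacter M)
    (hφ : mult (fun m : M => (θ : Q → ℂ) m) φ ≠ 0) {k : M}
    (hk : (k : Q) ∈ charKer (θ : Q → ℂ)) : k ∈ charKer (φ : M → ℂ) := by
  classical
  have := Fintype.ofFinite Q
  rw [mem_charKer_iff (isCharacter_coe φ)]
  have h := clifford θ φ hφ
  have h1 := congrFun h k
  have h2 := congrFun h 1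
  rw [OneMemClass.coe_one] at h2
  rw [map_eq_map_one_of_mem_charKer hk, h2] at h1
  simp only [Pi.smul_apply, Finset.sum_apply, smul_eq_mul] at h1
  have h3 := mul_left_cancel₀ (Nat.cast_ne_zero.2 hφ) h1
  set S := (Set.finite_range fun x : Q => conjIrr x φ).toFinset with hS
  have hle : ∀ η ∈ S, ((η : M → ℂ) k).re ≤ ((η : M → ℂ) 1).re := by
    intro η _
    refine (Complex.re_le_norm _).trans ((norm_apply_le (isCharacter_coe η) k).trans (le_of_eq ?_))
    rw [← coe_charDegree, Complex.norm_natCast, Complex.natCast_re]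
  have h4 := congrArg Complex.re h3.symm
  rw [Complex.re_sum, Complex.re_sum] at h4
  have h5 := (Finset.sum_eq_sum_iff_of_le hle).1 h4 φ
    ((Set.Finite.mem_toFinset _).2 ⟨1, conjIrr_one φ⟩)
  have h6 := norm_apply_le (isCharacter_coe φ) k
  have h7 : ‖(φ : M → ℂ) 1‖ = ((φ : M → ℂ) 1).re := by
    rw [← coe_charDegree, Complex.norm_natCast, Complex.natCast_re]
  have h8 : ((φ : M → ℂ) k).im = 0 := by
    have h9 : ‖(φ : M → ℂ) k‖ ^ 2 = ((φ : M → ℂ) k).re ^ 2 + ((φ : M → ℂ) k).im ^ 2 := by
      rw [← Complex.normSq_eq_norm_sq, Complex.normSq_apply]; ring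
    rw [h7, ← h5] at h6
    have := pow_le_pow_left₀ (norm_nonneg _) h6 2
    rw [h9] at this
    nlinarith
  refine Complex.ext h5 ?_
  rw [h8, ← coe_charDegree, Complex.natCast_im]

/-- A faithful character whose group is nilpotent of class two has square degree the central
index. -/
theorem charDegree_sq_eq_index_center {Q : Type u} [Group Q] [Finite Q] (ψ : IrrCharacter Q)
    (hf : ∀ g, (ψ : Q → ℂ) g = (ψ : Q → ℂ) 1 → g = 1)
    (hc : ∀ a b : Q, a * b * a⁻¹ * b⁻¹ ∈ Subgroup.center Q) :
    charDegree (ψ : Q → ℂ) ^ 2 = (Subgroup.center Q).index := by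
  classical
  have := Fintype.ofFinite Q
  have hvan : ∀ u : Q, u ∉ Subgroup.center Q → (ψ : Q → ℂ) u = 0 := by
    intro u hu
    obtain ⟨v, hv⟩ : ∃ v : Q, v * u ≠ u * v := by
      by_contra h
      push Not at h
      exact hu (Subgroup.mem_center_iff.2 h)
    set z := v * u * v⁻¹ * u⁻¹ with hz
    have h1 : (ψ : Q → ℂ) (z * u) = (ψ : Q → ℂ) u := by
      rw [show z * u = v * u * v⁻¹ by rw [hz]; group, isClassFunction_coe]
    rw [map_mul_of_mem_center ψ (hc v u)] at h1
    by_contra h0
    have h2 : (ψ : Q → ℂ) z / (ψ : Q → ℂ) 1 = 1 :=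
      mul_right_cancel₀ h0 (by rw [h1, one_mul])
    have h3 := hf z ((div_eq_one_iff_eq (map_one_ne_zero ψ)).1 h2)
    rw [hz, mul_inv_eq_one, mul_inv_eq_iff_eq_mul] at h3
    exact hv h3
  have h : (∑ g : Q, ‖(ψ : Q → ℂ) g‖ ^ 2 : ℝ) = Nat.card Q := by
    have := sum_mul_map_inv ψ ψ
    rw [if_pos rfl] at this
    simp only [map_inv_eq_conj (isCharacter_coe ψ), Complex.mul_conj,
      Complex.normSq_eq_norm_sq] at this
    exact_mod_cast this
  rw [← Finset.sum_filter_add_sum_filter_not Finset.univ (fun g : Q => g ∈ Subgroup.center Q),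
    Finset.sum_eq_zero (s := Finset.univ.filter fun g => ¬ g ∈ Subgroup.center Q) (fun g hg => by
      rw [hvan g (Finset.mem_filter.1 hg).2, norm_zero, zero_pow two_ne_zero]), add_zero,
    Finset.sum_congr rfl (g := fun _ => (charDegree (ψ : Q → ℂ) : ℝ) ^ 2) (fun g hg => by
      rw [norm_map_of_mem_center ψ (Finset.mem_filter.1 hg).2, ← coe_charDegree,
        Complex.norm_natCast]),
    Finset.sum_const, nsmul_eq_mul, ← Fintype.card_subtype, ← Nat.card_eq_fintype_card] at h
  have h' : Nat.card (Subgroup.center Q) * charDegree (ψ : Q → ℂ) ^ 2 = Nat.card Q := by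
    exact_mod_cast h
  rw [← (Subgroup.center Q).card_mul_index] at h'
  exact Nat.eq_of_mul_eq_mul_left Nat.card_pos h'

/-- Restriction of an automorphism to an invariant subgroup. -/
def restrictAut {Q : Type u} [Group Q] [Finite Q] (f : MulAut Q) (M : Subgroup Q)
    (h : ∀ u ∈ M, f u ∈ M) : MulAut M :=
  MulEquiv.ofBijective ((f.toMonoidHom.comp M.subtype).codRestrict M fun u => h u u.2)
    (Finite.injective_iff_bijective.1 fun a b hab =>
      Subtype.ext (f.injective (congrArg Subtype.val hab)))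

theorem restrictAut_apply {Q : Type u} [Group Q] [Finite Q] (f : MulAut Q) (M : Subgroup Q)
    (h : ∀ u ∈ M, f u ∈ M) (u : M) : (restrictAut f M h u : Q) = f u := rfl

theorem restrictAut_pow {Q : Type u} [Group Q] [Finite Q] (f : MulAut Q) (M : Subgroup Q)
    (h : ∀ u ∈ M, f u ∈ M) (n : ℕ) (u : M) : ((restrictAut f M h ^ n) u : Q) = (f ^ n) u := by
  induction n generalizing u with
  | zero => rfl
  | succ n ih => rw [pow_succ, pow_succ, MulAut.mul_apply, MulAut.mul_apply, ih, restrictAut_apply]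

/-- The induction: an invariant character with non-trivial action modulo the kernel. -/
theorem exists_pow_pm_one {q p : ℕ} [Fact q.Prime] [Fact p.Prime] (hpq : p ≠ q) :
    ∀ (n : ℕ) {Q : Type u} [Group Q] [Finite Q], Nat.card Q = n → IsPGroup q Q →
      ∀ (f : MulAut Q) (e : ℕ), f ^ p ^ e = 1 → ∀ θ : IrrCharacter Q,
        (∀ u, (θ : Q → ℂ) (f u) = (θ : Q → ℂ) u) →
        (∃ u, f u * u⁻¹ ∉ charKer (θ : Q → ℂ)) →
        ∃ b : ℕ, 0 < b ∧ q ^ b ∣ charDegree (θ : Q → ℂ) ∧ (p ∣ q ^ b - 1 ∨ p ∣ q ^ b + 1) := by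
  classical
  intro n
  induction n using Nat.strong_induction_on with
  | _ n ih =>
    intro Q _ _ hcard hQ f e hf θ hθ hne
    have := Fintype.ofFinite Q
    have hp : p.Prime := Fact.out
    have hq : q.Prime := Fact.out
    haveI : Nontrivial Q := by
      obtain ⟨u, hu⟩ := hne
      refine not_subsingleton_iff_nontrivial.1 fun hs => hu ?_
      rw [show f u * u⁻¹ = 1 from Subsingleton.elim _ _]
      exact Subgroup.one_mem _
    haveI : Group.IsNilpotent Q := IsPGroup.isNilpotent (p := q) hQ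
    set K := charKer (θ : Q → ℂ) with hK
    haveI hKn : K.Normal := charKer_normal (isClassFunction_coe θ)
    have hKf : ∀ k ∈ K, f k ∈ K := fun k hk => by
      rw [hK, mem_charKer_iff (isCharacter_coe θ)] at hk ⊢
      rw [hθ, hk]
    let fb : Q ⧸ K →* Q ⧸ K := QuotientGroup.map K K f.toMonoidHom hKf
    have hfb : ∀ u : Q, fb (u : Q ⧸ K) = (f u : Q ⧸ K) := fun u => rfl
    -- maximal invariant normal subgroup
    obtain ⟨M, ⟨hMn, hMf, hMtop⟩, hMmax⟩ := Set.Finite.exists_maximal (Set.toFinite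
      {M : Subgroup Q | M.Normal ∧ (∀ u ∈ M, f u ∈ M) ∧ M ≠ ⊤})
      ⟨⊥, inferInstance, fun u hu => by rw [Subgroup.mem_bot] at hu ⊢; rw [hu, map_one], bot_ne_top⟩
    haveI := hMn
    haveI := Fintype.ofFinite M
    have hdich : ∀ W : Subgroup Q, W.Normal → (∀ u ∈ W, f u ∈ W) → M ≤ W → W = M ∨ W = ⊤ := by
      intro W h1 h2 h3
      by_cases h4 : W = ⊤
      · exact Or.inr h4
      · exact Or.inl (le_antisymm (hMmax ⟨h1, h2, h4⟩ h3) h3)
    have hcm : commutator Q ≤ M := by
      have hinv : ∀ u ∈ M ⊔ commutator Q, f u ∈ M ⊔ commutator Q := by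
        intro u hu
        have hle : (M ⊔ commutator Q).map f.toMonoidHom ≤ M ⊔ commutator Q := by
          rw [Subgroup.map_sup]
          refine sup_le_sup (Subgroup.map_le_iff_le_comap.2 hMf) (le_of_eq ?_)
          rw [commutator_def, Subgroup.map_commutator,
            Subgroup.map_top_of_surjective _ f.surjective]
        exact hle ⟨u, hu, rfl⟩
      rcases hdich _ inferInstance hinv le_sup_left with h | h
      · exact h ▸ le_sup_right
      · exfalso
        haveI : Nontrivial (Q ⧸ M) := by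
          rw [← Finite.one_lt_card_iff_nontrivial, ← Subgroup.index_eq_card]
          have h1 : M.index ≠ 1 := fun h => hMtop (Subgroup.index_eq_one.1 h)
          have h2 : M.index ≠ 0 := Subgroup.index_ne_zero_of_finite
          omega
        have h1 : (commutator Q).map (QuotientGroup.mk' M) = ⊤ := by
          have h2 := congrArg (Subgroup.map (QuotientGroup.mk' M)) h
          rw [Subgroup.map_sup, Subgroup.map_top_of_surjective _ (QuotientGroup.mk'_surjective M),
            (Subgroup.map_eq_bot_iff M).2 (by rw [QuotientGroup.ker_mk']), bot_sup_eq] at h2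
          exact h2
        rw [commutator_def, Subgroup.map_commutator,
          Subgroup.map_top_of_surjective _ (QuotientGroup.mk'_surjective M), ← commutator_def] at h1
        exact (Group.IsSolvable.commutator_lt_top_of_nontrivial (G := Q ⧸ M)).ne h1
    have hnormal : ∀ W : Subgroup Q, M ≤ W → W.Normal := fun W hW => ⟨fun w hw g => by
      have h1 : g * w * g⁻¹ * w⁻¹ ∈ W := hW (hcm
        (Subgroup.commutator_mem_commutator (Subgroup.mem_top g) (Subgroup.mem_top w)))
      simpa [mul_assoc] using W.mul_mem h1 hw⟩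
    let W : Subgroup Q := MonoidHom.eqLocus ((QuotientGroup.mk' M).comp f.toMonoidHom)
      (QuotientGroup.mk' M)
    have hMW : M ≤ W := fun m hm => by
      show (QuotientGroup.mk' M) (f m) = QuotientGroup.mk' M m
      rw [QuotientGroup.mk'_apply, QuotientGroup.mk'_apply, (QuotientGroup.eq_one_iff m).2 hm,
        (QuotientGroup.eq_one_iff (f m)).2 (hMf m hm)]
    have hWf : ∀ u ∈ W, f u ∈ W := by
      intro u hu
      have hu' : (f u : Q ⧸ M) = (u : Q ⧸ M) := hu
      show ((f (f u) : Q) : Q ⧸ M) = ((f u : Q) : Q ⧸ M)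
      have h1 : u⁻¹ * f u ∈ M := by
        have := QuotientGroup.eq.1 hu'.symm
        exact this
      refine (QuotientGroup.eq.2 ?_).symm
      rw [← map_inv, ← map_mul]
      exact hMf _ h1
    -- constituents on M
    obtain ⟨φ, hφ⟩ := exists_mult_restrict_ne_zero (N := M) θ
    set fM := restrictAut f M hMf with hfM
    have hfMpow : fM ^ p ^ e = 1 := MulEquiv.ext fun u => Subtype.ext (by
      rw [hfM, restrictAut_pow, hf]; rfl)
    let S := {η : IrrCharacter M // mult (fun m : M => (θ : Q → ℂ) m) η ≠ 0}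
    have hrec : ∀ η : S, (∀ m, (η.1 : M → ℂ) (fM m) = (η.1 : M → ℂ) m) →
        (∃ m, fM m * m⁻¹ ∉ charKer (η.1 : M → ℂ)) →
        ∃ b : ℕ, 0 < b ∧ q ^ b ∣ charDegree (θ : Q → ℂ) ∧ (p ∣ q ^ b - 1 ∨ p ∣ q ^ b + 1) := by
      intro η h1 h2
      have hlt : Nat.card M < n := hcard ▸ (Subgroup.card_le_card_group M).lt_of_ne fun h =>
        hMtop (Subgroup.eq_top_of_card_eq M h)
      obtain ⟨b, hb, hbd, hbp⟩ := ih _ hlt (Q := M) rfl (hQ.to_subgroup M) fM e hfMpow η.1 h1 h2
      refine ⟨b, hb, hbd.trans ⟨mult (fun m : M => (θ : Q → ℂ) m) η.1 *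
        (inertia M (η.1 : M → ℂ)).index, ?_⟩, hbp⟩
      apply Nat.cast_injective (R := ℂ)
      push_cast
      rw [coe_charDegree, coe_charDegree, clifford_one θ η.1 η.2, mul_comm]
    have hcompmult : ∀ η : IrrCharacter M, mult (fun m : M => (θ : Q → ℂ) m)
        (irrEquiv fM.symm η : M → ℂ) = mult (fun m : M => (θ : Q → ℂ) m) η := by
      intro η
      simp only [mult]
      congr 2
      refine Eq.trans ?_ (classInner_comp_equiv fM (fun m : M => (θ : Q → ℂ) m) (η : M → ℂ))
      congr 1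
      funext m
      exact (hθ m).symm
    let σ : Equiv.Perm S := (irrEquiv fM.symm).subtypeEquiv fun η => by
      rw [hcompmult]
    have hσapp : ∀ (η : S) (m : M), ((σ η).1 : M → ℂ) m = (η.1 : M → ℂ) (fM m) := fun η m => by
      show (irrEquiv fM.symm η.1 : M → ℂ) m = _
      simp [irrEquiv_apply]
    have hσ : σ ^ p ^ e = 1 := by
      refine Equiv.ext fun η => Subtype.ext (Subtype.ext (funext fun m => ?_))
      have hit : ∀ (i : ℕ) (η : S) (m : M),
          (((σ ^ i) η).1 : M → ℂ) m = (η.1 : M → ℂ) ((fM ^ i) m) := by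
        intro i
        induction i with
        | zero => intro η m; rfl
        | succ i ih =>
          intro η m
          rw [pow_succ, Equiv.Perm.mul_apply, ih, hσapp, pow_succ', MulAut.mul_apply]
      rw [hit, hfMpow]
      rfl
    have hSorb : Nat.card S = (inertia M (φ : M → ℂ)).index := by
      rw [← card_conjOrbit φ]
      refine Nat.card_congr (Equiv.subtypeEquivRight fun η => ⟨fun h =>
        mem_conjOrbit_of_mult_ne_zero θ φ η hφ h, ?_⟩)
      rintro ⟨x, rfl⟩
      rwa [mult_restrict_conjIrr (isClassFunction_coe θ)]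
    have hqp : ∀ i : ℕ, ¬ p ∣ q ^ i := fun i h =>
      hpq ((Nat.prime_dvd_prime_iff_eq hp hq).1 (hp.dvd_of_dvd_pow h))
    obtain ⟨φ₀, hφ₀⟩ : ∃ η : S, σ η = η := by
      obtain ⟨i, hi⟩ := hQ.index (inertia M (φ : M → ℂ))
      have hmod := card_modEq_card_fixed σ hσ
      by_contra h
      haveI : IsEmpty {η : S // σ η = η} := ⟨fun x => h ⟨x.1, x.2⟩⟩
      rw [hSorb, hi, Nat.card_of_isEmpty] at hmod
      exact hqp i (Nat.modEq_zero_iff_dvd.1 hmod)
    have hfix₀ : ∀ m, (φ₀.1 : M → ℂ) (fM m) = (φ₀.1 : M → ℂ) m := fun m => by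
      rw [← hσapp, hφ₀]
    set I := inertia M (φ₀.1 : M → ℂ) with hI
    have hMI : M ≤ I := le_inertia (isClassFunction_coe φ₀.1)
    have hIf : ∀ u ∈ I, f u ∈ I := by
      intro u hu
      rw [hI, mem_inertia_iff_forall] at hu ⊢
      intro a b hab
      obtain ⟨a', rfl⟩ := fM.surjective a
      obtain ⟨b', rfl⟩ := fM.surjective b
      rw [hfix₀, hfix₀]
      refine hu a' b' (f.injective ?_)
      rw [map_mul, map_mul, map_inv]
      exact hab
    have htotal : (∀ u : Q, (f u : Q ⧸ K) = (u : Q ⧸ K)) → False := by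
      intro h
      obtain ⟨u, hu⟩ := hne
      refine hu ((QuotientGroup.eq_one_iff _).1 ?_)
      rw [QuotientGroup.mk_mul, QuotientGroup.mk_inv, h u, mul_inv_cancel]
    have hallM : (∀ η : S, (∀ m, (η.1 : M → ℂ) (fM m) = (η.1 : M → ℂ) m) ∧
          ∀ m, fM m * m⁻¹ ∈ charKer (η.1 : M → ℂ)) → ∀ m ∈ M, (f m : Q ⧸ K) = (m : Q ⧸ K) := by
      intro h m hm
      rw [← mul_inv_eq_one, ← QuotientGroup.mk_inv, ← QuotientGroup.mk_mul,
        QuotientGroup.eq_one_iff]
      exact mem_charKer_of_constituents hφ (k := fM ⟨m, hm⟩ * ⟨m, hm⟩⁻¹) fun x =>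
        map_eq_map_one_of_mem_charKer ((h ⟨conjIrr x φ, by
          rwa [mult_restrict_conjIrr (isClassFunction_coe θ)]⟩).2 ⟨m, hm⟩)
    rcases hdich W (hnormal W hMW) hWf hMW with hW | hW
    swap
    · -- trivial action on the quotient
      have hWall : ∀ u : Q, u⁻¹ * f u ∈ M := fun u => by
        have hu : u ∈ W := hW ▸ Subgroup.mem_top u
        exact QuotientGroup.eq.1 (show (f u : Q ⧸ M) = (u : Q ⧸ M) from hu).symm
      have hfixall : ∀ η : S, ∀ m, (η.1 : M → ℂ) (fM m) = (η.1 : M → ℂ) m := by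
        intro η m
        obtain ⟨x, hx⟩ := mem_conjOrbit_of_mult_ne_zero θ φ₀.1 η.1 φ₀.2 η.2
        rw [← hx, conjIrr_coe]
        have h1 : conjFun M (f x) (φ₀.1 : M → ℂ) = conjFun M x (φ₀.1 : M → ℂ) :=
          conjFun_eq_conjFun_iff.2 (hMI (hWall x))
        conv_lhs => rw [← h1]
        rw [conjFun_apply, conjFun_apply, ← hfix₀ ⟨x⁻¹ * (m : Q) * x, _⟩]
        exact congrArg _ (Subtype.ext (by simp [hfM, restrictAut_apply]))
      by_cases hex : ∃ η : S, ∃ m, fM m * m⁻¹ ∉ charKer (η.1 : M → ℂ)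
      · obtain ⟨η, hη⟩ := hex
        exact hrec η (hfixall η) hη
      push Not at hex
      have hM' := hallM fun η => ⟨hfixall η, hex η⟩
      exfalso
      refine htotal fun u => ?_
      set v : Q ⧸ K := ((u⁻¹ * f u : Q) : Q ⧸ K) with hv
      have hfv : fb v = v := by
        rw [hv, hfb]; exact hM' _ (hWall u)
      have hit : ∀ i : ℕ, (((f ^ i) u : Q) : Q ⧸ K) = (u : Q ⧸ K) * v ^ i := by
        intro i
        induction i with
        | zero => simp
        | succ i ih =>
          rw [pow_succ', MulAut.mul_apply, ← hfb, ih, map_mul, map_pow, hfv, hfb, pow_succ' v,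
            hv, QuotientGroup.mk_mul, QuotientGroup.mk_inv, ← mul_assoc, mul_inv_cancel_left]
      have h1 := hit (p ^ e)
      rw [hf, MulAut.one_apply, left_eq_mul] at h1
      obtain ⟨k, hk⟩ := hQ.to_quotient K v
      have h2 := pow_gcd_eq_one.2 ⟨h1, hk⟩
      rw [Nat.Coprime.gcd_eq_one (((Nat.coprime_primes hp hq).2 hpq).pow e k), pow_one] at h2
      rw [hv, QuotientGroup.mk_mul, QuotientGroup.mk_inv, inv_mul_eq_one] at h2
      exact h2.symm
    -- fixed-point-free on the quotient
    have hVmod : M.index ≡ 1 [MOD p] := by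
      let τ : Equiv.Perm (Q ⧸ M) := Equiv.ofBijective
        (QuotientGroup.map M M f.toMonoidHom hMf)
        (Finite.injective_iff_bijective.1 ((injective_iff_map_eq_one _).2 fun x hx => by
          obtain ⟨u, rfl⟩ := QuotientGroup.mk_surjective x
          have h1 : f u ∈ M := (QuotientGroup.eq_one_iff _).1 hx
          obtain ⟨m, hm⟩ := (restrictAut f M hMf).surjective ⟨f u, h1⟩
          rw [QuotientGroup.eq_one_iff, ← f.injective (congrArg Subtype.val hm)]
          exact m.2))
      have hτ : τ ^ p ^ e = 1 := by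
        refine Equiv.ext fun x => ?_
        obtain ⟨u, rfl⟩ := QuotientGroup.mk_surjective x
        have hit : ∀ i, (τ ^ i) (u : Q ⧸ M) = (((f ^ i) u : Q) : Q ⧸ M) := by
          intro i
          induction i with
          | zero => rfl
          | succ i ih => rw [pow_succ', Equiv.Perm.mul_apply, ih, pow_succ', MulAut.mul_apply]; rfl
        rw [hit, hf]; rfl
      have h := card_modEq_card_fixed τ hτ
      rw [← Subgroup.index_eq_card] at h
      have hone : Nat.card {x : Q ⧸ M // τ x = x} = 1 := by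
        rw [Nat.card_eq_one_iff_unique]
        refine ⟨⟨fun a b => ?_⟩, ⟨⟨1, map_one (QuotientGroup.map M M f.toMonoidHom hMf)⟩⟩⟩
        have hall : ∀ c : {x : Q ⧸ M // τ x = x}, c.1 = 1 := by
          rintro ⟨x, hx⟩
          obtain ⟨u, rfl⟩ := QuotientGroup.mk_surjective x
          have hu : u ∈ W := hx
          rw [hW] at hu
          exact (QuotientGroup.eq_one_iff u).2 hu
        exact Subtype.ext ((hall a).trans (hall b).symm)
      rwa [hone] at h
    rcases hdich I (hnormal I hMI) hIf hMI with hI' | hI'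
    · -- a regular orbit
      obtain ⟨j, hj⟩ := hQ.index M
      have hj0 : 0 < j := Nat.pos_of_ne_zero fun h => hMtop (Subgroup.index_eq_one.1 (by
        rw [hj, h, pow_zero]))
      refine ⟨j, hj0, ?_, Or.inl ((Nat.modEq_iff_dvd' (Nat.one_le_pow _ _ hq.pos)).1 (hj ▸ hVmod).symm)⟩
      refine ⟨mult (fun m : M => (θ : Q → ℂ) m) φ₀.1 * charDegree (φ₀.1 : M → ℂ), ?_⟩
      apply Nat.cast_injective (R := ℂ)
      push_cast
      rw [coe_charDegree, coe_charDegree, clifford_one θ φ₀.1 φ₀.2, ← hI, hI', hj]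
      push_cast
      ring
    -- an invariant constituent
    have hSone : ∀ η : S, η = φ₀ := by
      intro η
      obtain ⟨x, hx⟩ := mem_conjOrbit_of_mult_ne_zero θ φ₀.1 η.1 φ₀.2 η.2
      refine Subtype.ext (hx.symm.trans (Subtype.ext ?_))
      exact mem_inertia.1 (show x ∈ inertia M (φ₀.1 : M → ℂ) by rw [← hI, hI']; exact Subgroup.mem_top x)
    by_cases hex : ∃ m, fM m * m⁻¹ ∉ charKer (φ₀.1 : M → ℂ)
    · exact hrec φ₀ hfix₀ hex
    push Not at hex
    have hM' := hallM fun η => by rw [hSone η]; exact ⟨hfix₀, hex⟩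
    -- the centralizer of `M` modulo the kernel
    let C : Subgroup Q := (Subgroup.centralizer
      ((M.map (QuotientGroup.mk' K) : Subgroup (Q ⧸ K)) : Set (Q ⧸ K))).comap (QuotientGroup.mk' K)
    have hCmem : ∀ c, c ∈ C ↔ ∀ m ∈ M, (m : Q ⧸ K) * (c : Q ⧸ K) = (c : Q ⧸ K) * (m : Q ⧸ K) := by
      intro c
      simp only [C, Subgroup.mem_comap, Subgroup.mem_centralizer_iff, Subgroup.coe_map,
        Set.forall_mem_image, QuotientGroup.mk'_apply, SetLike.mem_coe]
    haveI : C.Normal := inferInstance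
    have hCf : ∀ c ∈ C, f c ∈ C := by
      intro c hc
      rw [hCmem] at hc ⊢
      intro m hm
      have h1 := congrArg fb (hc m hm)
      rwa [map_mul, map_mul, hfb, hfb, hM' m hm] at h1
    have hCM : C ⊔ M = ⊤ := by
      have hinv : ∀ u ∈ C ⊔ M, f u ∈ C ⊔ M := by
        intro u hu
        have hle : (C ⊔ M).map f.toMonoidHom ≤ C ⊔ M := by
          rw [Subgroup.map_sup]
          exact sup_le_sup (Subgroup.map_le_iff_le_comap.2 hCf) (Subgroup.map_le_iff_le_comap.2 hMf)
        exact hle ⟨u, hu, rfl⟩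
      rcases hdich _ inferInstance hinv le_sup_right with h | h
      swap
      · exact h
      exfalso
      refine hMtop (eq_top_iff.2 fun u _ => ?_)
      have hc : u⁻¹ * f u ∈ C := by
        rw [hCmem]
        intro m hm
        have hconj : u * m * u⁻¹ ∈ M := hMn.conj_mem _ hm _
        have h1 : (f (u * m * u⁻¹) : Q ⧸ K) = ((u * m * u⁻¹ : Q) : Q ⧸ K) := hM' _ hconj
        simp only [map_mul, map_inv, QuotientGroup.mk_mul, QuotientGroup.mk_inv, hM' m hm] at h1 ⊢
        calc (m : Q ⧸ K) * ((u : Q ⧸ K)⁻¹ * (f u : Q ⧸ K))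
            = (u : Q ⧸ K)⁻¹ * ((u : Q ⧸ K) * m * (u : Q ⧸ K)⁻¹) * (f u : Q ⧸ K) := by group
          _ = (u : Q ⧸ K)⁻¹ * ((f u : Q ⧸ K) * m * (f u : Q ⧸ K)⁻¹) * (f u : Q ⧸ K) := by rw [h1]
          _ = _ := by group
      have h2 : u⁻¹ * f u ∈ M := h ▸ Subgroup.mem_sup_left hc
      have h3 : u ∈ W := (QuotientGroup.eq.2 h2).symm
      rwa [hW] at h3
    by_cases hC : C = ⊤
    · -- class two modulo the kernel
      have hcent : M.map (QuotientGroup.mk' K) ≤ Subgroup.center (Q ⧸ K) := by
        rintro _ ⟨m, hm, rfl⟩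
        rw [Subgroup.mem_center_iff]
        intro x
        obtain ⟨c, rfl⟩ := QuotientGroup.mk_surjective x
        exact ((hCmem c).1 (hC ▸ Subgroup.mem_top c) m hm).symm
      obtain ⟨ψ, hψ⟩ := exists_inflate_eq K θ le_rfl
      have hψθ : ∀ u : Q, (ψ : Q ⧸ K → ℂ) u = (θ : Q → ℂ) u := fun u => by
        rw [← hψ, inflate_apply]
      have hψf : ∀ x : Q ⧸ K, (ψ : Q ⧸ K → ℂ) x = (ψ : Q ⧸ K → ℂ) 1 → x = 1 := by
        intro x hx
        obtain ⟨u, rfl⟩ := QuotientGroup.mk_surjective x
        rw [QuotientGroup.eq_one_iff, hK, mem_charKer_iff (isCharacter_coe θ), ← hψθ u, hx]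
        exact hψθ 1
      have hc2 : ∀ a b : Q ⧸ K, a * b * a⁻¹ * b⁻¹ ∈ Subgroup.center (Q ⧸ K) := by
        intro a b
        obtain ⟨a, rfl⟩ := QuotientGroup.mk_surjective a
        obtain ⟨b, rfl⟩ := QuotientGroup.mk_surjective b
        exact hcent ⟨_, hcm (Subgroup.commutator_mem_commutator (Subgroup.mem_top a)
          (Subgroup.mem_top b)), rfl⟩
      have hsq := charDegree_sq_eq_index_center ψ hψf hc2
      set Z := (Subgroup.center (Q ⧸ K)).comap (QuotientGroup.mk' K) with hZ
      have hMZ : M ≤ Z := fun m hm => hcent ⟨m, hm, rfl⟩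
      have hZf : ∀ u ∈ Z, f u ∈ Z := by
        intro u hu
        rw [hZ, Subgroup.mem_comap, Subgroup.mem_center_iff] at hu ⊢
        intro x
        obtain ⟨v, rfl⟩ := QuotientGroup.mk_surjective x
        obtain ⟨w, rfl⟩ := f.surjective v
        have h1 := congrArg fb (hu (w : Q ⧸ K))
        simpa only [map_mul, QuotientGroup.mk'_apply, hfb] using h1
      have hidx : Z.index = (Subgroup.center (Q ⧸ K)).index :=
        Subgroup.index_comap_of_surjective _ (QuotientGroup.mk'_surjective K)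
      have hθψ : charDegree (θ : Q → ℂ) = charDegree (ψ : Q ⧸ K → ℂ) := by
        rw [← hψ, charDegree_inflate]
      rcases hdich Z (hnormal Z hMZ) hZf hMZ with hZM | hZtop
      · obtain ⟨j, hj⟩ := hQ.index M
        obtain ⟨c, hc⟩ := IsPGroup.iff_card.1 hQ
        obtain ⟨b, -, hb⟩ := (Nat.dvd_prime_pow hq).1 (hc ▸ charDegree_dvd_card θ)
        rw [← hθψ, hb, ← hidx, hZM, hj, ← pow_mul] at hsq
        have hjb := Nat.pow_right_injective hq.two_le hsq
        have hb0 : 0 < b := by
          refine Nat.pos_of_ne_zero fun h => hMtop (Subgroup.index_eq_one.1 ?_)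
          rw [hj, ← hjb, h, zero_mul, pow_zero]
        refine ⟨b, hb0, hb ▸ dvd_rfl, ?_⟩
        have h1 : p ∣ q ^ j - 1 :=
          (Nat.modEq_iff_dvd' (Nat.one_le_pow _ _ hq.pos)).1 (hj ▸ hVmod).symm
        rw [← hjb, pow_mul, show (q ^ b) ^ 2 - 1 = (q ^ b + 1) * (q ^ b - 1) by
          have := Nat.sq_sub_sq (q ^ b) 1
          rwa [one_pow] at this] at h1
        exact (hp.dvd_mul.1 h1).symm
      · exfalso
        have hlin : (θ : Q → ℂ) 1 = 1 := by
          rw [← coe_charDegree]
          have h1 : (Subgroup.center (Q ⧸ K)).index = 1 := by rw [← hidx, hZtop, Subgroup.index_top]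
          rw [h1] at hsq
          rw [hθψ, show charDegree (ψ : Q ⧸ K → ℂ) = 1 by rw [pow_two] at hsq; exact Nat.eq_one_of_mul_eq_one_left hsq, Nat.cast_one]
        obtain ⟨l, hl⟩ := exists_linChar_eq θ hlin
        obtain ⟨u, hu⟩ := hne
        refine hu ((mem_charKer_iff (isCharacter_coe θ)).2 ?_)
        have h1 := hθ u
        rw [← hl, linChar_apply, linChar_apply] at h1
        rw [← hl, linChar_apply, linChar_apply, map_mul, map_inv, Units.ext h1, mul_inv_cancel,
          map_one]
    -- the centralizer is proper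
    haveI := Fintype.ofFinite C
    obtain ⟨η, hη⟩ := exists_mult_restrict_ne_zero (N := C) θ
    set fC := restrictAut f C hCf with hfC
    have hinert : inertia C (η : C → ℂ) = ⊤ := by
      refine eq_top_iff.2 (hCM ▸ sup_le (le_inertia (isClassFunction_coe η)) fun m hm => ?_)
      rw [mem_inertia_iff_forall]
      intro a b hab
      have hk : ((a⁻¹ * b : C) : Q) ∈ K := by
        refine (QuotientGroup.eq_one_iff _).1 ?_
        push_cast
        rw [hab, QuotientGroup.mk_mul, QuotientGroup.mk_mul, QuotientGroup.mk_mul,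
          QuotientGroup.mk_inv, QuotientGroup.mk_inv, (hCmem a).1 a.2 m hm, mul_inv_cancel_right,
          inv_mul_cancel]
      have h1 := mem_charKer.1 (mem_charKer_constituent θ η hη hk) a
      refine Eq.trans ?_ h1
      have h2 := isClassFunction_coe η (a⁻¹ * b * a) a
      rw [← h2]
      congr 1
      group
    have hfixη : ∀ c, (η : C → ℂ) (fC c) = (η : C → ℂ) c := by
      have h1 : mult (fun c : C => (θ : Q → ℂ) c) (irrEquiv fC.symm η : C → ℂ) ≠ 0 := by
        simp only [mult]
        rw [show classInner (fun c : C => (θ : Q → ℂ) c) (irrEquiv fC.symm η : C → ℂ) =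
            classInner (fun c : C => (θ : Q → ℂ) c) (η : C → ℂ) from ?_]
        · exact hη
        refine Eq.trans ?_ (classInner_comp_equiv fC (fun c : C => (θ : Q → ℂ) c) (η : C → ℂ))
        congr 1
        funext c; exact (hθ c).symm
      obtain ⟨x, hx⟩ := mem_conjOrbit_of_mult_ne_zero θ η (irrEquiv fC.symm η) hη h1
      intro c
      have h2 : (irrEquiv fC.symm η : C → ℂ) = (η : C → ℂ) := by
        rw [← hx, conjIrr_coe]
        exact mem_inertia.1 (hinert ▸ Subgroup.mem_top x)
      have h3 := congrFun h2 c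
      simpa [irrEquiv_apply] using h3
    by_cases hex2 : ∃ c, fC c * c⁻¹ ∉ charKer (η : C → ℂ)
    · have hlt : Nat.card C < n := hcard ▸ (Subgroup.card_le_card_group C).lt_of_ne fun h =>
        hC (Subgroup.eq_top_of_card_eq C h)
      have hfCpow : fC ^ p ^ e = 1 := MulEquiv.ext fun u => Subtype.ext (by
        rw [hfC, restrictAut_pow, hf]; rfl)
      obtain ⟨b, hb, hbd, hbp⟩ := ih _ hlt (Q := C) rfl (hQ.to_subgroup C) fC e hfCpow η hfixη hex2
      refine ⟨b, hb, hbd.trans ⟨mult (fun c : C => (θ : Q → ℂ) c) η *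
        (inertia C (η : C → ℂ)).index, ?_⟩, hbp⟩
      apply Nat.cast_injective (R := ℂ)
      push_cast
      rw [coe_charDegree, coe_charDegree, clifford_one θ η hη, mul_comm]
    exfalso
    push Not at hex2
    let F : Subgroup Q := MonoidHom.eqLocus ((QuotientGroup.mk' K).comp f.toMonoidHom)
      (QuotientGroup.mk' K)
    have hCF : C ≤ F := by
      intro c hc
      show (f c : Q ⧸ K) = (c : Q ⧸ K)
      rw [← mul_inv_eq_one, ← QuotientGroup.mk_inv, ← QuotientGroup.mk_mul,
        QuotientGroup.eq_one_iff]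
      refine mem_charKer_of_constituents hη (k := fC ⟨c, hc⟩ * ⟨c, hc⟩⁻¹) fun x => ?_
      rw [conjIrr_coe, mem_inertia.1 (hinert ▸ Subgroup.mem_top x)]
      exact map_eq_map_one_of_mem_charKer (hex2 ⟨c, hc⟩)
    exact htotal fun u => (hCM ▸ sup_le hCF (fun m hm => hM' m hm)) (Subgroup.mem_top u)

end CfsgLib.SylowDegreeDivisor
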