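import Mathlib.GroupTheory.Sylow
import Mathlib.GroupTheory.Solvable
import Mathlib.GroupTheory.Perm.Basic

/-!
# Prime powers congruent to one from non-trivial `p`-actions in solvable groups
-/

set_option autoImplicit false

namespace CfsgLib.SylowDegreeDivisor

/-- A permutation of `p`-power order has as many fixed points as points, modulo `p`. -/
theorem card_modEq_card_fixed {α : Type*} [Finite α] {p : ℕ} [Fact p.Prime] (σ : Equiv.Perm α)
    {e : ℕ} (hσ : σ ^ p ^ e = 1) : Nat.card α ≡ Nat.card {a : α // σ a = a} [MOD p] := by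
  classical
  obtain ⟨i, -, hi⟩ := (Nat.dvd_prime_pow Fact.out).1 (orderOf_dvd_of_pow_eq_one hσ)
  have hP : IsPGroup p (Subgroup.zpowers σ) := IsPGroup.of_card (n := i)
    (by rw [Nat.card_zpowers, hi])
  refine (hP.card_modEq_card_fixedPoints α).trans ?_
  rw [Nat.card_congr (?_ : MulAction.fixedPoints (Subgroup.zpowers σ) α ≃ {a : α // σ a = a})]
  exact
    { toFun := fun a => ⟨a.1, a.2 ⟨σ, Subgroup.mem_zpowers σ⟩⟩
      invFun := fun a => ⟨a.1, by
        rintro ⟨τ, k, rfl⟩
        exact Equiv.Perm.zpow_apply_eq_self_of_apply_eq_self a.2 k⟩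
      left_inv := fun a => rfl
      right_inv := fun a => rfl }

theorem mulAut_pow_apply {V : Type*} [Group V] (f : MulAut V) (n : ℕ) (v : V) :
    (f ^ n) v = (⇑f)^[n] v := by
  induction n generalizing v with
  | zero => rfl
  | succ n ih => rw [pow_succ, MulAut.mul_apply, ih, Function.iterate_succ_apply]

/-- A non-trivial `p`-automorphism of an abelian `p'`-group gives a prime power congruent to one. -/
theorem exists_pow_modEq_one {V : Type*} [Group V] [Finite V] (hV : ∀ a b : V, a * b = b * a)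
    {p : ℕ} [Fact p.Prime] (hp : ¬ p ∣ Nat.card V) (f : MulAut V) {e : ℕ}
    (hf : ∀ v, (f ^ p ^ e) v = v) (hne : ∃ v, f v ≠ v) :
    ∃ r k : ℕ, r.Prime ∧ 0 < k ∧ r ^ k ∣ Nat.card V ∧ r ^ k ≡ 1 [MOD p] := by
  classical
  haveI : IsMulCommutative V := ⟨⟨hV⟩⟩
  let L : Subgroup V := MonoidHom.eqLocus f.toMonoidHom (MonoidHom.id V)
  have hL : L ≠ ⊤ := fun h => by
    obtain ⟨v, hv⟩ := hne
    exact hv (show v ∈ L from h ▸ Subgroup.mem_top v)
  obtain ⟨r, hr, R, hRL⟩ : ∃ (r : ℕ) (_ : Fact r.Prime) (R : Sylow r V), ¬ (R : Subgroup V) ≤ L := by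
    by_contra h
    push Not at h
    refine hL (Subgroup.eq_top_of_card_eq L (Nat.dvd_antisymm L.card_subgroup_dvd_card ?_))
    rw [← Nat.factorization_prime_le_iff_dvd Nat.card_pos.ne' Nat.card_pos.ne']
    intro r hr
    haveI := Fact.mk hr
    obtain ⟨R⟩ : Nonempty (Sylow r V) := inferInstance
    rw [← Nat.Prime.pow_dvd_iff_le_factorization hr Nat.card_pos.ne', ← R.card_eq_multiplicity]
    exact Subgroup.card_dvd_of_le (h r ⟨hr⟩ R)
  haveI := hr
  haveI : (R : Subgroup V).Normal := ⟨fun x hx g => by rwa [hV g x, mul_inv_cancel_right]⟩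
  have hchar : (R : Subgroup V).Characteristic := Sylow.characteristic_of_normal R inferInstance
  have hR : ∀ v ∈ (R : Subgroup V), f v ∈ (R : Subgroup V) := fun v hv => by
    have h := Subgroup.characteristic_iff_map_eq.1 hchar f
    rw [← h]
    exact ⟨v, hv, rfl⟩
  let σ : Equiv.Perm (R : Subgroup V) := Equiv.ofBijective (fun v => ⟨f v, hR v v.2⟩)
    (Finite.injective_iff_bijective.1 fun a b h =>
      Subtype.ext (f.injective (congrArg Subtype.val h)))
  have hσ : σ ^ p ^ e = 1 := by
    ext v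
    have hiter : ∀ n, (((⇑σ)^[n] v : (R : Subgroup V)) : V) = (⇑f)^[n] v := by
      intro n
      induction n with
      | zero => rfl
      | succ n ih => rw [Function.iterate_succ_apply', Function.iterate_succ_apply', ← ih]; rfl
    rw [Equiv.Perm.coe_pow, hiter, ← mulAut_pow_apply, hf]
    rfl
  have hmod := card_modEq_card_fixed σ hσ
  have hfix : Nat.card {v : (R : Subgroup V) // σ v = v} = Nat.card (L.subgroupOf (R : Subgroup V)) :=
    Nat.card_congr (Equiv.subtypeEquivRight fun v =>
      ⟨fun h => congrArg Subtype.val h, fun h => Subtype.ext h⟩)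
  rw [hfix] at hmod
  obtain ⟨c, hc⟩ := IsPGroup.iff_card.1 R.2
  obtain ⟨d, hdc, hd⟩ := (Nat.dvd_prime_pow hr.out).1
    (hc ▸ (L.subgroupOf (R : Subgroup V)).card_subgroup_dvd_card)
  have hlt : d < c := by
    refine lt_of_le_of_ne hdc fun h => hRL ?_
    have htop : L.subgroupOf (R : Subgroup V) = ⊤ :=
      Subgroup.eq_top_of_card_eq _ (by rw [hd, h, hc])
    exact Subgroup.subgroupOf_eq_top.1 htop
  rw [hc, hd] at hmod
  have hpr : Nat.Coprime p (r ^ d) := by
    refine (Nat.Prime.coprime_iff_not_dvd Fact.out).2 fun h => hp (h.trans ?_)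
    rw [← hd]
    exact ((L.subgroupOf (R : Subgroup V)).card_subgroup_dvd_card).trans
      (R : Subgroup V).card_subgroup_dvd_card
  refine ⟨r, c - d, hr.out, by omega, ?_, ?_⟩
  · exact ((pow_dvd_pow r (Nat.sub_le c d)).trans hc.symm.dvd).trans
      (R : Subgroup V).card_subgroup_dvd_card
  · refine Nat.ModEq.cancel_left_of_coprime (c := r ^ d) hpr ?_
    rw [← pow_add, Nat.add_sub_cancel' hdc, mul_one]
    exact hmod

/-- A `p`-element moving a coset of a subgroup of `p'`-index of a solvable group gives a prime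
power congruent to one that divides the index. -/
theorem exists_pow_dvd_index {G : Type*} [Group G] [Finite G] [Group.IsSolvable G] {p : ℕ}
    [Fact p.Prime] {x : G} {e : ℕ} (hx : x ^ p ^ e = 1) :
    ∀ (n : ℕ) (T : Subgroup G), T.index = n → ¬ p ∣ T.index → (∃ g : G, g⁻¹ * x * g ∉ T) →
      ∃ r k : ℕ, r.Prime ∧ 0 < k ∧ r ^ k ∣ T.index ∧ r ^ k ≡ 1 [MOD p] := by
  classical
  intro n
  induction n using Nat.strong_induction_on with
  | _ n ih =>
    intro T hn hp hg
    set C := T.normalCore with hC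
    have hCT : C ≤ T := T.normalCore_le
    obtain ⟨A, hAn, hAT, hAA⟩ : ∃ A : Subgroup G, A.Normal ∧ ¬ A ≤ T ∧ ⁅A, A⁆ ≤ T := by
      obtain ⟨m, hm⟩ := (inferInstance : Group.IsSolvable G).solvable
      have htop : ¬ derivedSeries G 0 ≤ T := fun h => by
        obtain ⟨g, hg'⟩ := hg
        exact hg' (h (Subgroup.mem_top _))
      have hex : ∃ i, derivedSeries G i ≤ T := ⟨m, hm.le.trans bot_le⟩
      have hfind := Nat.find_spec hex
      have h0 : Nat.find hex ≠ 0 := fun h => htop (h ▸ hfind)
      obtain ⟨i, hi⟩ := Nat.exists_eq_succ_of_ne_zero h0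
      refine ⟨derivedSeries G i, derivedSeries_normal G i, Nat.find_min hex (by omega), ?_⟩
      rw [hi] at hfind
      exact hfind
    haveI := hAn
    have hlt : T < A ⊔ T := lt_of_le_of_ne le_sup_right fun h => hAT (h ▸ le_sup_left)
    have hdvd : (A ⊔ T).index ∣ T.index := Subgroup.index_dvd_of_le hlt.le
    by_cases hg' : ∃ g : G, g⁻¹ * x * g ∉ A ⊔ T
    · have hidx : (A ⊔ T).index < n := by
        rw [← hn]
        exact Subgroup.index_strictAnti hlt
      obtain ⟨r, k, hr, hk, hd, hm⟩ := ih _ hidx (A ⊔ T) rfl (fun h => hp (h.trans hdvd)) hg'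
      exact ⟨r, k, hr, hk, hd.trans hdvd, hm⟩
    push Not at hg'
    obtain ⟨g, hgT⟩ := hg
    set y := g⁻¹ * x * g with hy
    have hye : y ^ p ^ e = 1 := by
      rw [hy, show g⁻¹ * x * g = g⁻¹ * x * g⁻¹⁻¹ by rw [inv_inv], conj_pow, hx, mul_one,
        inv_inv, inv_mul_cancel]
    -- a fixed coset
    obtain ⟨a, haA, hsT⟩ : ∃ a ∈ A, a⁻¹ * y * a ∈ T := by
      let S := A ⊔ T
      let y' : S := ⟨y, hg' g⟩
      let σ : Equiv.Perm (S ⧸ T.subgroupOf S) := MulAction.toPerm y'
      have hσ : σ ^ p ^ e = 1 := by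
        rw [show σ = MulAction.toPermHom S (S ⧸ T.subgroupOf S) y' from rfl, ← map_pow,
          show y' ^ p ^ e = 1 from Subtype.ext (by simpa [y'] using hye), map_one]
      have hmod := card_modEq_card_fixed σ hσ
      have hcard : ¬ p ∣ Nat.card (S ⧸ T.subgroupOf S) := fun h => hp (h.trans (by
        rw [← Subgroup.index_eq_card]
        exact Subgroup.relIndex_dvd_index_of_le le_sup_right))
      obtain ⟨⟨c, hc⟩⟩ : Nonempty {c : S ⧸ T.subgroupOf S // σ c = c} := by
        by_contra h
        rw [not_nonempty_iff] at h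
        haveI := h
        rw [Nat.card_of_isEmpty (α := {c : S ⧸ T.subgroupOf S // σ c = c})] at hmod
        exact hcard (Nat.modEq_zero_iff_dvd.1 hmod)
      obtain ⟨h, rfl⟩ := QuotientGroup.mk_surjective c
      have hh : (h : G)⁻¹ * y * h ∈ T := by
        have h1 : ((h⁻¹ * (y' * h) : S) : G) ∈ T :=
          Subgroup.mem_subgroupOf.1 (QuotientGroup.eq.1 (show (QuotientGroup.mk h : S ⧸ T.subgroupOf S) = QuotientGroup.mk (y' * h) from hc.symm))
        simpa [mul_assoc] using h1
      obtain ⟨a, ha, t, ht, hat⟩ := Subgroup.mem_sup_of_normal_left.1 h.2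
      refine ⟨a, ha, ?_⟩
      rw [← hat] at hh
      have := T.mul_mem (T.mul_mem ht hh) (T.inv_mem ht)
      simpa [mul_assoc] using this
    set s := a⁻¹ * y * a with hs
    set D := T.subgroupOf A with hD
    haveI : D.Normal := ⟨fun d hd b => by
      rw [hD, Subgroup.mem_subgroupOf] at hd ⊢
      have hc : ((b : G) * d * (b : G)⁻¹ * (d : G)⁻¹) ∈ T :=
        hAA (Subgroup.commutator_mem_commutator b.2 d.2)
      simpa [mul_assoc] using T.mul_mem hc hd⟩
    have hconjD : ∀ b : A, b ∈ D → (MulAut.conjNormal s b : A) ∈ D := fun b hb => by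
      rw [hD, Subgroup.mem_subgroupOf] at hb ⊢
      rw [MulAut.conjNormal_apply]
      exact T.mul_mem (T.mul_mem hsT hb) (T.inv_mem hsT)
    have hmap : D.map (MulAut.conjNormal s : MulAut A).toMonoidHom = D := by
      refine Subgroup.eq_of_le_of_card_ge (Subgroup.map_le_iff_le_comap.2 hconjD) ?_
      exact (Nat.card_congr (D.equivMapOfInjective _ (MulEquiv.injective _)).toEquiv).le
    let f : MulAut (A ⧸ D) := QuotientGroup.congr D D (MulAut.conjNormal s) hmap
    have hfmk : ∀ b : A, f (b : A ⧸ D) = ((MulAut.conjNormal s b : A) : A ⧸ D) := fun b => rfl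
    have hcardV : Nat.card (A ⧸ D) = T.relIndex A := (Subgroup.index_eq_card D).symm
    have hVdvd : Nat.card (A ⧸ D) ∣ T.index := by
      rw [hcardV]
      have h1 : T.relIndex A ∣ T.relIndex (A ⊔ T) := by
        have h2 : A.relIndex (A ⊔ T) = A.relIndex T := Subgroup.relIndex_sup_left (K := A) (H := T)
        have h3 := Subgroup.card_mul_index (A.subgroupOf T)
        have h4 := Subgroup.card_mul_index (T.subgroupOf A)
        have h5 := Subgroup.card_mul_index (T.subgroupOf (A ⊔ T))
        have h6 := Subgroup.card_mul_index (A.subgroupOf (A ⊔ T))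
        have e1 : Nat.card (A.subgroupOf T) = Nat.card (A ⊓ T : Subgroup G) := by
          rw [← Subgroup.inf_subgroupOf_right]
          exact Nat.card_congr (Subgroup.subgroupOfEquivOfLe inf_le_right).toEquiv
        have e2 : Nat.card (T.subgroupOf A) = Nat.card (A ⊓ T : Subgroup G) := by
          rw [← Subgroup.inf_subgroupOf_right, inf_comm]
          exact Nat.card_congr (Subgroup.subgroupOfEquivOfLe inf_le_left).toEquiv
        have e3 : Nat.card (T.subgroupOf (A ⊔ T)) = Nat.card T :=
          Nat.card_congr (Subgroup.subgroupOfEquivOfLe le_sup_right).toEquiv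
        have e4 : Nat.card (A.subgroupOf (A ⊔ T)) = Nat.card A :=
          Nat.card_congr (Subgroup.subgroupOfEquivOfLe le_sup_left).toEquiv
        simp only [Subgroup.relIndex] at h2 ⊢
        rw [e1] at h3; rw [e2] at h4; rw [e3] at h5; rw [e4, h2] at h6
        refine dvd_of_eq (Nat.eq_of_mul_eq_mul_left (Nat.card_pos (α := T)) ?_)
        calc Nat.card T * (T.subgroupOf A).index
            = (Nat.card (A ⊓ T : Subgroup G) * (T.subgroupOf A).index) * (A.subgroupOf T).index := by
              rw [← h3]; ring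
          _ = Nat.card T * (T.subgroupOf (A ⊔ T)).index := by rw [h4, h6, h5]
      exact h1.trans (Subgroup.relIndex_dvd_index_of_le le_sup_right)
    have hse : s ^ p ^ e = 1 := by
      rw [hs, show a⁻¹ * y * a = a⁻¹ * y * a⁻¹⁻¹ by rw [inv_inv], conj_pow, hye, mul_one,
        inv_inv, inv_mul_cancel]
    obtain ⟨r, k, hr, hk, hd, hm⟩ := exists_pow_modEq_one (V := A ⧸ D)
      (fun u v => by
        obtain ⟨u, rfl⟩ := QuotientGroup.mk_surjective u
        obtain ⟨v, rfl⟩ := QuotientGroup.mk_surjective v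
        rw [← QuotientGroup.mk_mul, ← QuotientGroup.mk_mul, QuotientGroup.eq, hD,
          Subgroup.mem_subgroupOf]
        have hc : ((v : G)⁻¹ * (u : G)⁻¹ * (v : G)⁻¹⁻¹ * (u : G)⁻¹⁻¹) ∈ T :=
          hAA (Subgroup.commutator_mem_commutator (A.inv_mem v.2) (A.inv_mem u.2))
        simpa [mul_assoc] using hc)
      (fun h => hp (h.trans hVdvd)) f (e := e)
      (fun v => by
        obtain ⟨v, rfl⟩ := QuotientGroup.mk_surjective v
        rw [mulAut_pow_apply]
        have hit : ∀ i, (⇑f)^[i] (v : A ⧸ D) = ((MulAut.conjNormal (s ^ i) v : A) : A ⧸ D) := by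
          intro i
          induction i with
          | zero => simp
          | succ i ih =>
            rw [Function.iterate_succ_apply', ih, hfmk, pow_succ']
            congr 1
            exact Subtype.ext (by simp [MulAut.conjNormal_apply, mul_assoc])
        rw [hit, hse, map_one, MulAut.one_apply])
      (by
        by_contra hfix
        push Not at hfix
        refine hgT ?_
        have h1 := hfix (((⟨a, haA⟩⁻¹ : A)) : A ⧸ D)
        rw [hfmk, QuotientGroup.eq, hD, Subgroup.mem_subgroupOf] at h1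
        simp only [Subgroup.coe_mul, Subgroup.coe_inv, MulAut.conjNormal_apply, mul_inv_rev,
          inv_inv] at h1
        -- h1 : s a s⁻¹ a⁻¹ ∈ T
        have h2 : y = (s * a * s⁻¹ * a⁻¹)⁻¹ * s := by rw [hs]; group
        rw [h2]
        exact T.mul_mem (T.inv_mem (by simpa [mul_assoc] using h1)) hsT)
    exact ⟨r, k, hr, hk, hd.trans hVdvd, hm⟩

end CfsgLib.SylowDegreeDivisor
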